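import Cfsg.Agent.H921.U33.TypeTwo

/-!
# S5525, part G: the finite check (helper109)

`hfin_of`: a Bool function `chk` of packed matrices, a table and the codes of the representatives, evaluated by the kernel,
gives: every vector of `F₃^8` is moved by a word in four matrices to a vector fixed by one of the first three, or to a
representative.
-/

set_option autoImplicit false

namespace Cfsg.Agent.H109.U33

open Cfsg.Agent.H921.U33

/-- the code of a vector -/
def code (v : Fin 8 → ZMod 3) : ℕ :=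
  (v 0).val + 3 * (v 1).val + 9 * (v 2).val + 27 * (v 3).val + 81 * (v 4).val + 243 * (v 5).val + 729 * (v 6).val +
    2187 * (v 7).val

/-- a packed row: lanes of base `81` -/
def pack (r : Fin 8 → ZMod 3) : ℕ :=
  (r 0).val + 81 * (r 1).val + 6561 * (r 2).val + 531441 * (r 3).val + 43046721 * (r 4).val +
    3486784401 * (r 5).val + 282429536481 * (r 6).val + 22876792454961 * (r 7).val

theorem val_lt3 (x : ZMod 3) : x.val < 3 := x.val_lt

theorem code_lt (v : Fin 8 → ZMod 3) : code v < 6561 := by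
  have h0 := val_lt3 (v 0)
  have h1 := val_lt3 (v 1)
  have h2 := val_lt3 (v 2)
  have h3 := val_lt3 (v 3)
  have h4 := val_lt3 (v 4)
  have h5 := val_lt3 (v 5)
  have h6 := val_lt3 (v 6)
  have h7 := val_lt3 (v 7)
  unfold code
  omega

theorem code_inj {v w : Fin 8 → ZMod 3} (h : code v = code w) : v = w := by
  have h0 := val_lt3 (v 0)
  have h1 := val_lt3 (v 1)
  have h2 := val_lt3 (v 2)
  have h3 := val_lt3 (v 3)
  have h4 := val_lt3 (v 4)
  have h5 := val_lt3 (v 5)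
  have h6 := val_lt3 (v 6)
  have h7 := val_lt3 (v 7)
  have g0 := val_lt3 (w 0)
  have g1 := val_lt3 (w 1)
  have g2 := val_lt3 (w 2)
  have g3 := val_lt3 (w 3)
  have g4 := val_lt3 (w 4)
  have g5 := val_lt3 (w 5)
  have g6 := val_lt3 (w 6)
  have g7 := val_lt3 (w 7)
  unfold code at h
  funext j
  apply ZMod.val_injective
  fin_cases j
  · show (v 0).val = (w 0).val; omega
  · show (v 1).val = (w 1).val; omega
  · show (v 2).val = (w 2).val; omega
  · show (v 3).val = (w 3).val; omega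
  · show (v 4).val = (w 4).val; omega
  · show (v 5).val = (w 5).val; omega
  · show (v 6).val = (w 6).val; omega
  · show (v 7).val = (w 7).val; omega

/-- eight packed rows -/
structure Row8 where
  r0 : ℕ
  r1 : ℕ
  r2 : ℕ
  r3 : ℕ
  r4 : ℕ
  r5 : ℕ
  r6 : ℕ
  r7 : ℕ

/-- the packed rows of a matrix -/
def rows (M : Fin 8 → Fin 8 → ZMod 3) : Row8 :=
  ⟨pack (M 0), pack (M 1), pack (M 2), pack (M 3), pack (M 4), pack (M 5), pack (M 6), pack (M 7)⟩

/-- equality of packed rows -/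
def eq8 (R S : Row8) : Bool :=
  (Nat.beq R.r0 S.r0 && Nat.beq R.r1 S.r1 && Nat.beq R.r2 S.r2 && Nat.beq R.r3 S.r3) &&
    (Nat.beq R.r4 S.r4 && Nat.beq R.r5 S.r5 && Nat.beq R.r6 S.r6 && Nat.beq R.r7 S.r7)

theorem eq8_spec {R S : Row8} (h : eq8 R S = true) : R = S := by
  obtain ⟨a0, a1, a2, a3, a4, a5, a6, a7⟩ := R
  obtain ⟨b0, b1, b2, b3, b4, b5, b6, b7⟩ := S
  simp only [eq8, Bool.and_eq_true, Nat.beq_eq] at h
  obtain ⟨⟨⟨⟨h0, h1⟩, h2⟩, h3⟩, ⟨⟨h4, h5⟩, h6⟩, h7⟩ := h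
  subst h0 h1 h2 h3 h4 h5 h6 h7
  rfl

/-- the packed image -/
def sum8 (R : Row8) (c : ℕ) : ℕ :=
  Nat.add (Nat.add (Nat.add (Nat.mul (Nat.mod c 3) R.r0) (Nat.mul (Nat.mod (Nat.div c 3) 3) R.r1))
    (Nat.add (Nat.mul (Nat.mod (Nat.div c 9) 3) R.r2) (Nat.mul (Nat.mod (Nat.div c 27) 3) R.r3)))
    (Nat.add (Nat.add (Nat.mul (Nat.mod (Nat.div c 81) 3) R.r4) (Nat.mul (Nat.mod (Nat.div c 243) 3) R.r5))
    (Nat.add (Nat.mul (Nat.mod (Nat.div c 729) 3) R.r6) (Nat.mul (Nat.div c 2187) R.r7)))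

/-- the code of a packed image -/
def red8 (s : ℕ) : ℕ :=
  Nat.add (Nat.add (Nat.add (Nat.mod s 3) (Nat.mul 3 (Nat.mod (Nat.div s 81) 3)))
    (Nat.add (Nat.mul 9 (Nat.mod (Nat.div s 6561) 3)) (Nat.mul 27 (Nat.mod (Nat.div s 531441) 3))))
    (Nat.add (Nat.add (Nat.mul 81 (Nat.mod (Nat.div s 43046721) 3)) (Nat.mul 243 (Nat.mod (Nat.div s 3486784401) 3)))
    (Nat.add (Nat.mul 729 (Nat.mod (Nat.div s 282429536481) 3))
      (Nat.mul 2187 (Nat.mod (Nat.div s 22876792454961) 3))))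

theorem act_val (M : Fin 8 → Fin 8 → ZMod 3) (v : Fin 8 → ZMod 3) (j : Fin 8) :
    (act M v j).val = ((v 0).val * (M 0 j).val + (v 1).val * (M 1 j).val + (v 2).val * (M 2 j).val +
      (v 3).val * (M 3 j).val + (v 4).val * (M 4 j).val + (v 5).val * (M 5 j).val + (v 6).val * (M 6 j).val +
      (v 7).val * (M 7 j).val) % 3 := by
  rw [← ZMod.val_natCast]
  congr 1
  push_cast
  simp only [ZMod.natCast_val, ZMod.cast_id', id]
  rw [act, Fin.sum_univ_eight]

theorem mul_le4 {a b : ℕ} (ha : a < 3) (hb : b < 3) : a * b ≤ 4 :=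
  Nat.mul_le_mul (show a ≤ 2 by omega) (show b ≤ 2 by omega)

theorem lane_le (M : Fin 8 → Fin 8 → ZMod 3) (v : Fin 8 → ZMod 3) (j : Fin 8) :
    (v 0).val * (M 0 j).val + (v 1).val * (M 1 j).val + (v 2).val * (M 2 j).val +
      (v 3).val * (M 3 j).val + (v 4).val * (M 4 j).val + (v 5).val * (M 5 j).val + (v 6).val * (M 6 j).val +
      (v 7).val * (M 7 j).val ≤ 32 := by
  have h := fun i : Fin 8 => mul_le4 (val_lt3 (v i)) (val_lt3 (M i j))
  have h0 := h 0
  have h1 := h 1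
  have h2 := h 2
  have h3 := h 3
  have h4 := h 4
  have h5 := h 5
  have h6 := h 6
  have h7 := h 7
  omega

/-- lanes of base `81` -/
theorem red8_eq {a0 a1 a2 a3 a4 a5 a6 a7 : ℕ} (b0 : a0 ≤ 32) (b1 : a1 ≤ 32) (b2 : a2 ≤ 32) (b3 : a3 ≤ 32)
    (b4 : a4 ≤ 32) (b5 : a5 ≤ 32) (b6 : a6 ≤ 32) :
    red8 (a0 + 81 * a1 + 6561 * a2 + 531441 * a3 + 43046721 * a4 + 3486784401 * a5 + 282429536481 * a6 +
      22876792454961 * a7) = a0 % 3 + 3 * (a1 % 3) + 9 * (a2 % 3) + 27 * (a3 % 3) + 81 * (a4 % 3) +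
      243 * (a5 % 3) + 729 * (a6 % 3) + 2187 * (a7 % 3) := by
  obtain ⟨s6, h6⟩ : ∃ s, s = a6 + 81 * a7 := ⟨_, rfl⟩
  obtain ⟨s5, h5⟩ : ∃ s, s = a5 + 81 * s6 := ⟨_, rfl⟩
  obtain ⟨s4, h4⟩ : ∃ s, s = a4 + 81 * s5 := ⟨_, rfl⟩
  obtain ⟨s3, h3⟩ : ∃ s, s = a3 + 81 * s4 := ⟨_, rfl⟩
  obtain ⟨s2, h2⟩ : ∃ s, s = a2 + 81 * s3 := ⟨_, rfl⟩
  obtain ⟨s1, h1⟩ : ∃ s, s = a1 + 81 * s2 := ⟨_, rfl⟩
  obtain ⟨s, h0⟩ : ∃ s, s = a0 + 81 * s1 := ⟨_, rfl⟩
  have hs : a0 + 81 * a1 + 6561 * a2 + 531441 * a3 + 43046721 * a4 + 3486784401 * a5 + 282429536481 * a6 +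
      22876792454961 * a7 = s := by
    rw [h0, h1, h2, h3, h4, h5, h6]
    ring
  have q1 : s / 81 = s1 := by omega
  have q2 : s1 / 81 = s2 := by omega
  have q3 : s2 / 81 = s3 := by omega
  have q4 : s3 / 81 = s4 := by omega
  have q5 : s4 / 81 = s5 := by omega
  have q6 : s5 / 81 = s6 := by omega
  have q7 : s6 / 81 = a7 := by omega
  have p2 : s / 6561 = s2 := by rw [show 6561 = 81 * 81 from rfl, ← Nat.div_div_eq_div_mul, q1, q2]
  have p3 : s / 531441 = s3 := by rw [show 531441 = 6561 * 81 from rfl, ← Nat.div_div_eq_div_mul, p2, q3]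
  have p4 : s / 43046721 = s4 := by rw [show 43046721 = 531441 * 81 from rfl, ← Nat.div_div_eq_div_mul, p3, q4]
  have p5 : s / 3486784401 = s5 := by
    rw [show 3486784401 = 43046721 * 81 from rfl, ← Nat.div_div_eq_div_mul, p4, q5]
  have p6 : s / 282429536481 = s6 := by
    rw [show 282429536481 = 3486784401 * 81 from rfl, ← Nat.div_div_eq_div_mul, p5, q6]
  have p7 : s / 22876792454961 = a7 := by
    rw [show 22876792454961 = 282429536481 * 81 from rfl, ← Nat.div_div_eq_div_mul, p6, q7]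
  have g0 : s % 3 = a0 % 3 := by omega
  have g1 : s1 % 3 = a1 % 3 := by omega
  have g2 : s2 % 3 = a2 % 3 := by omega
  have g3 : s3 % 3 = a3 % 3 := by omega
  have g4 : s4 % 3 = a4 % 3 := by omega
  have g5 : s5 % 3 = a5 % 3 := by omega
  have g6 : s6 % 3 = a6 % 3 := by omega
  have hr : red8 s = (s % 3 + 3 * (s / 81 % 3) + (9 * (s / 6561 % 3) + 27 * (s / 531441 % 3))) +
      (81 * (s / 43046721 % 3) + 243 * (s / 3486784401 % 3) +
        (729 * (s / 282429536481 % 3) + 2187 * (s / 22876792454961 % 3))) := rfl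
  rw [hs, hr, q1, p2, p3, p4, p5, p6, p7, g0, g1, g2, g3, g4, g5, g6]
  ring

theorem code_digits (v : Fin 8 → ZMod 3) :
    code v % 3 = (v 0).val ∧ code v / 3 % 3 = (v 1).val ∧ code v / 9 % 3 = (v 2).val ∧
      code v / 27 % 3 = (v 3).val ∧ code v / 81 % 3 = (v 4).val ∧ code v / 243 % 3 = (v 5).val ∧
      code v / 729 % 3 = (v 6).val ∧ code v / 2187 = (v 7).val := by
  have h0 := val_lt3 (v 0)
  have h1 := val_lt3 (v 1)
  have h2 := val_lt3 (v 2)
  have h3 := val_lt3 (v 3)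
  have h4 := val_lt3 (v 4)
  have h5 := val_lt3 (v 5)
  have h6 := val_lt3 (v 6)
  have h7 := val_lt3 (v 7)
  refine ⟨?_, ?_, ?_, ?_, ?_, ?_, ?_, ?_⟩
  all_goals
    unfold code
    omega

theorem img (M : Fin 8 → Fin 8 → ZMod 3) (v : Fin 8 → ZMod 3) :
    red8 (sum8 (rows M) (code v)) = code (act M v) := by
  obtain ⟨d0, d1, d2, d3, d4, d5, d6, d7⟩ := code_digits v
  have hs : sum8 (rows M) (code v) =
      ((code v % 3) * pack (M 0) + (code v / 3 % 3) * pack (M 1) +
        ((code v / 9 % 3) * pack (M 2) + (code v / 27 % 3) * pack (M 3))) +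
      ((code v / 81 % 3) * pack (M 4) + (code v / 243 % 3) * pack (M 5) +
        ((code v / 729 % 3) * pack (M 6) + (code v / 2187) * pack (M 7))) := rfl
  rw [d0, d1, d2, d3, d4, d5, d6, d7] at hs
  have hs2 : sum8 (rows M) (code v) = _ := hs.trans (b := _) (by
    unfold pack
    exact (show _ =
      ((v 0).val * (M 0 0).val + (v 1).val * (M 1 0).val + (v 2).val * (M 2 0).val +
        (v 3).val * (M 3 0).val + (v 4).val * (M 4 0).val + (v 5).val * (M 5 0).val + (v 6).val * (M 6 0).val +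
        (v 7).val * (M 7 0).val) +
      81 * ((v 0).val * (M 0 1).val + (v 1).val * (M 1 1).val + (v 2).val * (M 2 1).val +
        (v 3).val * (M 3 1).val + (v 4).val * (M 4 1).val + (v 5).val * (M 5 1).val + (v 6).val * (M 6 1).val +
        (v 7).val * (M 7 1).val) +
      6561 * ((v 0).val * (M 0 2).val + (v 1).val * (M 1 2).val + (v 2).val * (M 2 2).val +
        (v 3).val * (M 3 2).val + (v 4).val * (M 4 2).val + (v 5).val * (M 5 2).val + (v 6).val * (M 6 2).val +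
        (v 7).val * (M 7 2).val) +
      531441 * ((v 0).val * (M 0 3).val + (v 1).val * (M 1 3).val + (v 2).val * (M 2 3).val +
        (v 3).val * (M 3 3).val + (v 4).val * (M 4 3).val + (v 5).val * (M 5 3).val + (v 6).val * (M 6 3).val +
        (v 7).val * (M 7 3).val) +
      43046721 * ((v 0).val * (M 0 4).val + (v 1).val * (M 1 4).val + (v 2).val * (M 2 4).val +
        (v 3).val * (M 3 4).val + (v 4).val * (M 4 4).val + (v 5).val * (M 5 4).val + (v 6).val * (M 6 4).val +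
        (v 7).val * (M 7 4).val) +
      3486784401 * ((v 0).val * (M 0 5).val + (v 1).val * (M 1 5).val + (v 2).val * (M 2 5).val +
        (v 3).val * (M 3 5).val + (v 4).val * (M 4 5).val + (v 5).val * (M 5 5).val + (v 6).val * (M 6 5).val +
        (v 7).val * (M 7 5).val) +
      282429536481 * ((v 0).val * (M 0 6).val + (v 1).val * (M 1 6).val + (v 2).val * (M 2 6).val +
        (v 3).val * (M 3 6).val + (v 4).val * (M 4 6).val + (v 5).val * (M 5 6).val + (v 6).val * (M 6 6).val +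
        (v 7).val * (M 7 6).val) +
      22876792454961 * ((v 0).val * (M 0 7).val + (v 1).val * (M 1 7).val + (v 2).val * (M 2 7).val +
        (v 3).val * (M 3 7).val + (v 4).val * (M 4 7).val + (v 5).val * (M 5 7).val + (v 6).val * (M 6 7).val +
        (v 7).val * (M 7 7).val) by ring))
  rw [hs2, red8_eq (lane_le M v 0) (lane_le M v 1) (lane_le M v 2) (lane_le M v 3) (lane_le M v 4) (lane_le M v 5)
    (lane_le M v 6), ← act_val, ← act_val, ← act_val, ← act_val, ← act_val, ← act_val, ← act_val, ← act_val]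
  rfl

/-! ### The check -/

/-- entry of the table: kind `+ 8 * rank` -/
def ent (tab c : ℕ) : ℕ := Nat.mod (Nat.shiftRight tab (Nat.mul 7 c)) 128

/-- one vector -/
def chk1 (R0 R1 R2 R3 : Row8) (tab : ℕ) (repc : List ℕ) (c : ℕ) : Bool :=
  cond (Nat.beq (Nat.mod (ent tab c) 8) 0)
    (Nat.blt (Nat.div (ent tab (red8 (sum8 R0 c))) 8) (Nat.div (ent tab c) 8))
  (cond (Nat.beq (Nat.mod (ent tab c) 8) 1)
    (Nat.blt (Nat.div (ent tab (red8 (sum8 R1 c))) 8) (Nat.div (ent tab c) 8))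
  (cond (Nat.beq (Nat.mod (ent tab c) 8) 2)
    (Nat.blt (Nat.div (ent tab (red8 (sum8 R2 c))) 8) (Nat.div (ent tab c) 8))
  (cond (Nat.beq (Nat.mod (ent tab c) 8) 3)
    (Nat.blt (Nat.div (ent tab (red8 (sum8 R3 c))) 8) (Nat.div (ent tab c) 8))
  (cond (Nat.beq (Nat.mod (ent tab c) 8) 4) (repc.any (Nat.beq c))
  (cond (Nat.beq (Nat.mod (ent tab c) 8) 5) (Nat.beq (red8 (sum8 R0 c)) c)
  (cond (Nat.beq (Nat.mod (ent tab c) 8) 6) (Nat.beq (red8 (sum8 R1 c)) c)
  (Nat.beq (red8 (sum8 R2 c)) c)))))))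

/-- all codes -/
def all3 (f : ℕ → Bool) : ℕ → ℕ → Bool
  | 0, c => f c
  | n + 1, c => cond (all3 f n (Nat.mul 3 c)) (cond (all3 f n (Nat.add (Nat.mul 3 c) 1))
      (all3 f n (Nat.add (Nat.mul 3 c) 2)) false) false

theorem cond_false_iff {a b : Bool} : cond a b false = true ↔ a = true ∧ b = true := by
  cases a <;> simp

theorem all3_spec {f : ℕ → Bool} : ∀ {n c : ℕ}, all3 f n c = true → ∀ k < 3 ^ n, f (3 ^ n * c + k) = true
  | 0, c, h, k, hk => by
    have hk0 : k = 0 := by simpa using hk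
    subst hk0
    simpa [all3] using h
  | n + 1, c, h, k, hk => by
    rw [all3, cond_false_iff, cond_false_iff] at h
    obtain ⟨h0, h1, h2⟩ := h
    have h0' := fun k hk => all3_spec h0 k hk
    have h1' := fun k hk => all3_spec h1 k hk
    have h2' := fun k hk => all3_spec h2 k hk
    have e0 : Nat.mul 3 c = 3 * c := rfl
    have e1 : Nat.add (Nat.mul 3 c) 1 = 3 * c + 1 := rfl
    have e2 : Nat.add (Nat.mul 3 c) 2 = 3 * c + 2 := rfl
    rw [e0] at h0'
    rw [e1] at h1'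
    rw [e2] at h2'
    have hp : 3 ^ (n + 1) = 3 * 3 ^ n := by ring
    rw [hp] at hk
    rcases lt_or_ge k (3 ^ n) with hk1 | hk1
    · have := h0' k hk1
      rwa [show 3 ^ (n + 1) * c + k = 3 ^ n * (3 * c) + k by ring]
    · rcases lt_or_ge k (2 * 3 ^ n) with hk2 | hk2
      · have := h1' (k - 3 ^ n) (by omega)
        rwa [show 3 ^ (n + 1) * c + k = 3 ^ n * (3 * c + 1) + (k - 3 ^ n) by
          have : k = 3 ^ n + (k - 3 ^ n) := by omega
          conv_lhs => rw [this]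
          ring]
      · have := h2' (k - 2 * 3 ^ n) (by omega)
        rwa [show 3 ^ (n + 1) * c + k = 3 ^ n * (3 * c + 2) + (k - 2 * 3 ^ n) by
          have : k = 2 * 3 ^ n + (k - 2 * 3 ^ n) := by omega
          conv_lhs => rw [this]
          ring]

/-- the whole check -/
def chk (R0 R1 R2 R3 : Row8) (tab : ℕ) (repc : List ℕ) : Bool := all3 (chk1 R0 R1 R2 R3 tab repc) 8 0

/-- the conclusion for one vector -/
def Good (A : Fin 4 → Fin 8 → Fin 8 → ZMod 3) (reps : List (Fin 8 → ZMod 3)) (v : Fin 8 → ZMod 3) : Prop :=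
  ∃ l : List (Fin 4), (∃ i, i ≠ 3 ∧ act (A i) (acts A v l) = acts A v l) ∨ acts A v l ∈ reps

theorem Good.step {A : Fin 4 → Fin 8 → Fin 8 → ZMod 3} {reps : List (Fin 8 → ZMod 3)} {v : Fin 8 → ZMod 3}
    (i : Fin 4) (h : Good A reps (act (A i) v)) : Good A reps v := by
  obtain ⟨l, h⟩ := h
  exact ⟨i :: l, h⟩

/-- **the finite check of part G** -/
theorem hfin_of {A : Fin 4 → Fin 8 → Fin 8 → ZMod 3} {reps : List (Fin 8 → ZMod 3)} {R0 R1 R2 R3 : Row8}
    (k0 : eq8 (rows (A 0)) R0 = true) (k1 : eq8 (rows (A 1)) R1 = true) (k2 : eq8 (rows (A 2)) R2 = true)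
    (k3 : eq8 (rows (A 3)) R3 = true) {repc : List ℕ} (hr : reps.map code = repc) {tab : ℕ} (h : chk R0 R1 R2 R3 tab repc = true) :
    ∀ v : Fin 8 → ZMod 3, ∃ l : List (Fin 4),
      (∃ i, i ≠ 3 ∧ act (A i) (acts A v l) = acts A v l) ∨ acts A v l ∈ reps := by
  have h0 := eq8_spec k0
  have h1 := eq8_spec k1
  have h2 := eq8_spec k2
  have h3 := eq8_spec k3
  have hall : ∀ v : Fin 8 → ZMod 3, chk1 R0 R1 R2 R3 tab repc (code v) = true := by
    intro v
    have := all3_spec h (code v) (by have := code_lt v; norm_num; exact this)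
    simpa using this
  suffices hs : ∀ n, ∀ v : Fin 8 → ZMod 3, ent tab (code v) / 8 < n → Good A reps v by
    intro v
    exact hs _ v (Nat.lt_succ_self _)
  intro n
  induction n with
  | zero => intro v hv; omega
  | succ n ih =>
    intro v hv
    have hc := hall v
    unfold chk1 at hc
    rw [← h0, ← h1, ← h2, ← h3, img, img, img, img] at hc
    simp only [Bool.cond_eq_ite] at hc
    split_ifs at hc with c0 c1 c2 c3 c4 c5 c6
    · apply Good.step 0
      apply ih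
      have h9 : ent tab (code (act (A 0) v)) / 8 < ent tab (code v) / 8 := Nat.blt_eq.mp hc
      omega
    · apply Good.step 1
      apply ih
      have h9 : ent tab (code (act (A 1) v)) / 8 < ent tab (code v) / 8 := Nat.blt_eq.mp hc
      omega
    · apply Good.step 2
      apply ih
      have h9 : ent tab (code (act (A 2) v)) / 8 < ent tab (code v) / 8 := Nat.blt_eq.mp hc
      omega
    · apply Good.step 3
      apply ih
      have h9 : ent tab (code (act (A 3) v)) / 8 < ent tab (code v) / 8 := Nat.blt_eq.mp hc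
      omega
    · refine ⟨[], Or.inr ?_⟩
      show v ∈ reps
      obtain ⟨x, hx, hxc⟩ := List.any_eq_true.1 hc
      rw [← hr, List.mem_map] at hx
      obtain ⟨w, hw, rfl⟩ := hx
      have : code v = code w := Nat.eq_of_beq_eq_true hxc
      rw [code_inj this]
      exact hw
    · refine ⟨[], Or.inl ⟨0, by decide, ?_⟩⟩
      exact code_inj (Nat.eq_of_beq_eq_true hc)
    · refine ⟨[], Or.inl ⟨1, by decide, ?_⟩⟩
      exact code_inj (Nat.eq_of_beq_eq_true hc)
    · refine ⟨[], Or.inl ⟨2, by decide, ?_⟩⟩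
      exact code_inj (Nat.eq_of_beq_eq_true hc)

end Cfsg.Agent.H109.U33
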